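import Cfsg.Agent.CentrallyLarge.Basic
import Mathlib.GroupTheory.Nilpotent

/-!
In a finite nilpotent group some minimal centrally large subgroup is normalized by the Thompson
subgroup generated by the abelian subgroups of largest order (hence also by all minimal centrally
large subgroups).
-/

set_option autoImplicit false

namespace CfsgLib.CentrallyLarge

open Cfsg
open scoped Pointwise commutatorElement

variable {G : Type*} [Group G] [Finite G]

omit [Finite G] in
theorem map_conj_cen (g : G) (H : Subgroup G) :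
    (cen H).map (MulAut.conj g).toMonoidHom = cen (H.map (MulAut.conj g).toMonoidHom) := by
  apply le_antisymm
  · rintro _ ⟨c, hc, rfl⟩ _ ⟨h, hh, rfl⟩
    show MulAut.conj g h * MulAut.conj g c = MulAut.conj g c * MulAut.conj g h
    rw [← map_mul, ← map_mul, hc h hh]
  · intro c hc
    refine ⟨(MulAut.conj g).symm c, fun h hh => ?_, (MulAut.conj g).apply_symm_apply c⟩
    apply (MulAut.conj g).injective
    rw [map_mul, map_mul, MulEquiv.apply_symm_apply]
    exact hc _ ⟨h, hh, rfl⟩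

omit [Finite G] in
theorem isCentralizerLarge_map_conj {H : Subgroup G} (hH : IsCentralizerLarge H) (g : G) :
    IsCentralizerLarge (H.map (MulAut.conj g).toMonoidHom) := by
  show _ * Nat.card ↥(cen (H.map (MulAut.conj g).toMonoidHom)) = _
  rw [← map_conj_cen, Subgroup.card_map_of_injective (f := (MulAut.conj g).toMonoidHom)
    (MulAut.conj g).injective, Subgroup.card_map_of_injective (f := (MulAut.conj g).toMonoidHom)
    (MulAut.conj g).injective]
  exact hH

omit [Finite G] in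
theorem normalizer_le_normalizer_cen (H : Subgroup G) :
    Subgroup.normalizer (H : Set G) ≤ Subgroup.normalizer (cen H : Set G) := by
  intro g hg
  rw [Subgroup.mem_normalizer_iff_map_conj_eq]
  rw [Subgroup.mem_normalizer_iff_map_conj_eq] at hg
  exact (map_conj_cen g H).trans (congrArg cen hg)

omit [Finite G] in
theorem normalizer_inf_le (H K : Subgroup G) :
    Subgroup.normalizer (H : Set G) ⊓ Subgroup.normalizer (K : Set G) ≤
      Subgroup.normalizer ((H ⊓ K : Subgroup G) : Set G) := by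
  intro g hg
  rw [Subgroup.mem_normalizer_iff]
  intro h
  exact and_congr (Subgroup.mem_normalizer_iff.mp hg.1 h) (Subgroup.mem_normalizer_iff.mp hg.2 h)

/-- The abelian subgroup of largest order attached to a centrally large subgroup and an abelian
subgroup of largest order. -/
theorem inf_sup_cen_mem {Q A : Subgroup G} (hQ : IsCentrallyLarge Q)
    (hA : A ∈ maxAbelianSubgroups G) : (Q ⊓ A) ⊔ cen Q ∈ maxAbelianSubgroups G := by
  obtain ⟨hQ1, hQ2⟩ := isCentrallyLarge_iff.mp hQ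
  obtain ⟨hset, hJ, -, -⟩ := sup_maxAbelian hQ hA
  have hab : IsMulCommutative ↥((Q ⊓ A) ⊔ cen Q : Subgroup G) :=
    comm_sup (inf_le_right.trans ((le_cen_of_comm hA.1).trans
      (Subgroup.centralizer_le (SetLike.coe_subset_coe.mpr inf_le_right))))
      (Subgroup.centralizer_le (SetLike.coe_subset_coe.mpr hQ2))
      (inf_le_left.trans (Subgroup.le_centralizer_iff.mpr le_rfl))
  refine ⟨hab, fun C hC => (hA.2 C hC).trans ?_⟩
  have hcJ : cen (Q ⊔ A) = cen Q ⊓ A := by rw [cen_sup, cen_eq_self hA]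
  have h1 : Nat.card ↥(Q ⊔ A) * Nat.card ↥(Q ⊓ A) = Nat.card ↥Q * Nat.card ↥A := by
    have h := card_setMul_mul_card_inf Q A
    rw [← hset] at h
    exact h
  have h2 : Nat.card ↥(Q ⊔ A) * Nat.card ↥(cen Q ⊓ A : Subgroup G) = Nat.card ↥Q * Nat.card ↥(cen Q) := by
    rw [← hcJ]
    exact (isCentrallyLarge_iff.mp hJ).1.trans hQ1.symm
  have h3 : (Q ⊓ A) ⊓ cen Q = cen Q ⊓ A :=
    le_antisymm (le_inf inf_le_right (inf_le_left.trans inf_le_right))
      (le_inf (le_inf (inf_le_left.trans hQ2) inf_le_right) inf_le_left)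
  have h4 : Nat.card ↥((Q ⊓ A : Subgroup G) : Set G) * Nat.card ↥(cen Q) =
      Nat.card ↥A * Nat.card ↥(cen Q ⊓ A : Subgroup G) := by
    refine Nat.eq_of_mul_eq_mul_left (Nat.card_pos (α := ↥Q)) ?_
    calc Nat.card ↥Q * (Nat.card ↥(Q ⊓ A) * Nat.card ↥(cen Q))
        = Nat.card ↥(Q ⊓ A) * (Nat.card ↥Q * Nat.card ↥(cen Q)) := by ring
      _ = (Nat.card ↥(Q ⊔ A) * Nat.card ↥(Q ⊓ A)) * Nat.card ↥(cen Q ⊓ A : Subgroup G) := by
          rw [← h2]; ring
      _ = _ := by rw [h1]; ring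
  have h5 := card_mul_le_sup (Q ⊓ A) (cen Q)
  rw [h3] at h5
  exact Nat.le_of_mul_le_mul_right (h4.ge.trans h5) Nat.card_pos

/-- A member of the lattice of largest measure containing a given set, smallest such. -/
theorem exists_smallest_member {W : Subgroup G} (hW : IsCentralizerLarge W) (S : Set G)
    (hS : S ⊆ (W : Set G)) :
    ∃ Y : Subgroup G, IsCentralizerLarge Y ∧ S ⊆ (Y : Set G) ∧
      ∀ Z : Subgroup G, IsCentralizerLarge Z → S ⊆ (Z : Set G) → Y ≤ Z := by
  obtain ⟨Y, hY⟩ := Set.Finite.exists_minimal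
    (s := {Y : Subgroup G | IsCentralizerLarge Y ∧ S ⊆ (Y : Set G)}) (Set.toFinite _) ⟨W, hW, hS⟩
  refine ⟨Y, hY.1.1, hY.1.2, fun Z hZ hSZ => ?_⟩
  exact (hY.2 ⟨(lattice hY.1.1 hZ).2.1, Set.subset_inter hY.1.2 hSZ⟩ inf_le_left).trans inf_le_right

omit [Finite G] in
/-- In a nilpotent group, a normalized subgroup not inside `E` has an element outside `E` whose
commutators with the normalizing subgroup lie in `E`. -/
theorem exists_fixed_outside [Group.IsNilpotent G] {X C E : Subgroup G}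
    (hX : X ≤ Subgroup.normalizer (C : Set G)) (hC : ¬ C ≤ E) :
    ∃ x ∈ C, x ∉ E ∧ ∀ g ∈ X, ⁅g, x⁆ ∈ E := by
  classical
  obtain ⟨n, hn⟩ := Subgroup.nilpotent_iff_lowerCentralSeries.mp (inferInstance : Group.IsNilpotent G)
  have hex : ∃ k : ℕ, C ⊓ Subgroup.lowerCentralSeries (⊤ : Subgroup G) k ≤ E :=
    ⟨n, by rw [hn, inf_bot_eq]; exact bot_le⟩
  set k := Nat.find hex with hk
  have hk0 : k ≠ 0 := fun h => hC (by
    have h1 := Nat.find_spec hex
    rw [← hk, h, Subgroup.lowerCentralSeries_zero, inf_top_eq] at h1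
    exact h1)
  obtain ⟨j, hj⟩ := Nat.exists_eq_succ_of_ne_zero hk0
  obtain ⟨x, hx, hxE⟩ := SetLike.not_le_iff_exists.mp
    (Nat.find_min hex (show j < k by omega))
  refine ⟨x, hx.1, hxE, fun g hg => ?_⟩
  refine Nat.find_spec hex ?_
  rw [← hk, hj]
  refine ⟨?_, ?_⟩
  · rw [commutatorElement_def]
    exact C.mul_mem ((Subgroup.mem_normalizer_iff.mp (hX hg) x).mp hx.1) (C.inv_mem hx.1)
  · rw [← commutatorElement_inv]
    refine Subgroup.inv_mem _ ?_
    rw [Subgroup.lowerCentralSeries_succ]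
    exact Subgroup.commutator_mem_commutator hx.2 (Subgroup.mem_top g)

/-- The descent step: a centrally large subgroup normalized by the Thompson subgroup is minimal
unless a smaller one is also normalized by it. -/
theorem exists_smaller_normalized [Group.IsNilpotent G] {W Q : Subgroup G}
    (hW : IsCentrallyLarge W) (hJ : thompsonSubgroupA G ≤ Subgroup.normalizer (W : Set G))
    (hQ : IsCentrallyLarge Q) (hQW : Q ≤ W) (hne : Q ≠ W) :
    ∃ W' : Subgroup G, IsCentrallyLarge W' ∧ W' ≤ W ∧ W' ≠ W ∧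
      thompsonSubgroupA G ≤ Subgroup.normalizer (W' : Set G) := by
  classical
  by_contra hno
  obtain ⟨hW1, hW2⟩ := isCentrallyLarge_iff.mp hW
  obtain ⟨hQ1, hQ2⟩ := isCentrallyLarge_iff.mp hQ
  set J := thompsonSubgroupA G with hJdef
  set M := maxCentralizerProduct G with hM
  set E := cen W with hE
  have hJE : J ≤ Subgroup.normalizer (E : Set G) := hJ.trans (normalizer_le_normalizer_cen W)
  have hEc : cen E = W := cen_cen_eq hW1
  -- no invariant abelian member above `E`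
  have hiso : ∀ N : Subgroup G, IsCentralizerLarge N → E ≤ N → N ≤ cen N →
      J ≤ Subgroup.normalizer (N : Set G) → N = E := by
    intro N hN hEN hNab hJN
    by_contra hNE
    apply hno
    refine ⟨cen N, isCentrallyLarge_iff.mpr ⟨isCentralizerLarge_cen hN, by rw [cen_cen_eq hN]; exact hNab⟩,
      ?_, ?_, hJN.trans (normalizer_le_normalizer_cen N)⟩
    · rw [← hEc]; exact Subgroup.centralizer_le (SetLike.coe_subset_coe.mpr hEN)
    · intro h
      apply hNE
      rw [hE, ← h, cen_cen_eq hN]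
  -- the members generated by the fixed points is everything
  set F := {x : G | x ∈ W ∧ ∀ g ∈ J, ⁅g, x⁆ ∈ E} with hF
  have hEF : ∀ e ∈ E, e ∈ F := fun e he => ⟨hW2 he, fun g hg => by
    rw [commutatorElement_def]
    exact mul_mem ((Subgroup.mem_normalizer_iff.mp (hJE hg) e).mp he) (inv_mem he)⟩
  obtain ⟨Y, hY, hFY, hYmin⟩ := exists_smallest_member hW1 F fun x hx => hx.1
  have hYW : Y ≤ W := hYmin W hW1 fun x hx => hx.1
  have hEY : E ≤ Y := fun e he => hFY (hEF e he)
  have hFconj : ∀ g ∈ J, ∀ x ∈ F, g * x * g⁻¹ ∈ Y := by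
    intro g hg x hx
    have h := mul_mem (hEY (hx.2 g hg)) (hFY hx)
    rwa [commutatorElement_def, inv_mul_cancel_right] at h
  have hJY : J ≤ Subgroup.normalizer (Y : Set G) := by
    intro g hg
    rw [Subgroup.mem_normalizer_iff_map_conj_eq]
    have hle : Y ≤ Y.map (MulAut.conj g).toMonoidHom := by
      refine hYmin _ (isCentralizerLarge_map_conj hY g) fun x hx => ?_
      refine ⟨g⁻¹ * x * g⁻¹⁻¹, hFconj g⁻¹ (inv_mem hg) x hx, ?_⟩
      show g * (g⁻¹ * x * g⁻¹⁻¹) * g⁻¹ = x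
      group
    exact (Subgroup.eq_of_le_of_card_ge hle
      (Subgroup.card_map_of_injective (f := (MulAut.conj g).toMonoidHom) (MulAut.conj g).injective).le).symm
  have hJY' : J ≤ Subgroup.normalizer (cen Y : Set G) := hJY.trans (normalizer_le_normalizer_cen Y)
  have hYc : Y ⊓ cen Y = E := by
    refine hiso _ (lattice hY (isCentralizerLarge_cen hY)).2.1
      (le_inf hEY ((Subgroup.centralizer_le (SetLike.coe_subset_coe.mpr hYW)))) ?_
      (le_trans (le_inf hJY hJY') (normalizer_inf_le _ _))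
    exact inf_le_right.trans (Subgroup.centralizer_le (SetLike.coe_subset_coe.mpr inf_le_left))
  have hYeq : Y = W := by
    rw [← cen_cen_eq hY, ← hEc]
    congr 1
    refine le_antisymm ?_ (hE ▸ Subgroup.centralizer_le (SetLike.coe_subset_coe.mpr hYW))
    by_contra hlt
    obtain ⟨x, hx, hxE, hxg⟩ := exists_fixed_outside hJY' hlt
    have hxW : x ∈ W := by
      rw [← hEc]; exact Subgroup.centralizer_le (SetLike.coe_subset_coe.mpr hEY) hx
    exact hxE (hYc ▸ ⟨hFY ⟨hxW, hxg⟩, hx⟩)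
  -- a smallest abelian member above `E`
  obtain ⟨N, hN⟩ := Set.Finite.exists_minimal
    (s := {N : Subgroup G | IsCentralizerLarge N ∧ E ≤ N ∧ N ≠ E ∧ N ≤ cen N}) (Set.toFinite _)
    ⟨cen Q, isCentralizerLarge_cen hQ1, Subgroup.centralizer_le (SetLike.coe_subset_coe.mpr hQW),
      fun h => hne (by rw [← cen_cen_eq hQ1, h, hEc]), by rw [cen_cen_eq hQ1]; exact hQ2⟩
  obtain ⟨⟨hN1, hEN, hNE, hNab⟩, hNmin⟩ := hN
  refine hNE (hiso N hN1 hEN hNab (sSup_le fun A hA a ha => ?_))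
  have haJ : a ∈ J := le_sSup (s := maxAbelianSubgroups G) hA ha
  rw [Subgroup.mem_normalizer_iff_map_conj_eq]
  set U := cen N with hU
  have hUN : cen U = N := cen_cen_eq hN1
  have hU1 : IsCentrallyLarge U :=
    isCentrallyLarge_iff.mpr ⟨isCentralizerLarge_cen hN1, hUN ▸ hNab⟩
  have hUW : U ≤ W := hEc ▸ Subgroup.centralizer_le (SetLike.coe_subset_coe.mpr hEN)
  set π := (W ⊓ A) ⊔ E with hπ
  have hπA : π ∈ maxAbelianSubgroups G := inf_sup_cen_mem hW hA
  have hπc : cen π = π := cen_eq_self hπA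
  have hπW : π ≤ W := sup_le inf_le_left hW2
  have hEπ : E ≤ π := le_sup_right
  -- `a` moves elements of `π` inside their cosets of `E`
  have hπa : ∀ q ∈ π, ⁅a, q⁆ ∈ E := by
    intro q hq
    rw [hπ, ← SetLike.mem_coe, Subgroup.coe_mul_of_left_le_normalizer_right _ _
      (inf_le_left.trans ((Subgroup.le_centralizer_iff.mpr le_rfl : W ≤ cen E).trans
        (Subgroup.centralizer_le_normalizer _)))] at hq
    obtain ⟨w, hw, e, he, rfl⟩ := hq
    have haw : a * w = w * a := (le_cen_of_comm hA.1 ha w hw.2).symm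
    have hae : a * e * a⁻¹ * e⁻¹ ∈ E :=
      mul_mem ((Subgroup.mem_normalizer_iff.mp (hJE haJ) e).mp he) (inv_mem he)
    have hwc : w * (a * e * a⁻¹ * e⁻¹) * w⁻¹ = a * e * a⁻¹ * e⁻¹ := by
      have h : w * (a * e * a⁻¹ * e⁻¹) = (a * e * a⁻¹ * e⁻¹) * w := hae w hw.1
      rw [h, mul_inv_cancel_right]
    rw [commutatorElement_def]
    have h2 : a * (w * e) * a⁻¹ * (w * e)⁻¹ = (a * w) * (e * a⁻¹ * e⁻¹) * w⁻¹ := by group
    have h3 : (w * a) * (e * a⁻¹ * e⁻¹) * w⁻¹ = w * (a * e * a⁻¹ * e⁻¹) * w⁻¹ := by group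
    rw [h2, haw, h3, hwc]
    exact hae
  set N2 := N.map (MulAut.conj a).toMonoidHom with hN2
  have hN2card : Nat.card ↥N2 = Nat.card ↥N :=
    Subgroup.card_map_of_injective (f := (MulAut.conj a).toMonoidHom) (MulAut.conj a).injective
  by_cases hNπ : N ≤ π
  · refine Subgroup.eq_of_le_of_card_ge ?_ hN2card.ge
    rintro _ ⟨n, hn, rfl⟩
    have h := mul_mem (hEN (hπa n (hNπ hn))) hn
    rw [commutatorElement_def, inv_mul_cancel_right] at h
    exact h
  obtain ⟨hWset, hWCL, hcenI, -⟩ := sup_maxAbelian hU1 hπA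
  rw [hUN] at hcenI
  have hcY : cen (U ⊔ π) = N ⊓ π := by rw [cen_sup, hUN, hπc]
  have hE' : N ⊓ π = E := by
    by_contra hne'
    refine hNπ ((hNmin ⟨?_, le_inf hEN hEπ, hne', ?_⟩ inf_le_left).trans inf_le_right)
    · rw [← hcY]; exact isCentralizerLarge_cen (isCentrallyLarge_iff.mp hWCL).1
    · exact inf_le_left.trans (hNab.trans (Subgroup.centralizer_le (SetLike.coe_subset_coe.mpr inf_le_left)))
  have hUπ : U ⊔ π = W := by
    rw [← cen_cen_eq (isCentrallyLarge_iff.mp hWCL).1, hcY, hE', hEc]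
  rw [hUπ] at hWset
  -- the second member
  have hN2' : IsCentralizerLarge N2 := isCentralizerLarge_map_conj hN1 a
  have hU2 : U.map (MulAut.conj a).toMonoidHom = cen N2 := map_conj_cen a N
  have hEN2 : E ≤ N2 := by
    intro e he
    exact ⟨a⁻¹ * e * a⁻¹⁻¹, hEN ((Subgroup.mem_normalizer_iff.mp (hJE (inv_mem haJ)) e).mp he),
      by show a * (a⁻¹ * e * a⁻¹⁻¹) * a⁻¹ = e; group⟩
  have hN2ab : N2 ≤ cen N2 := by
    rw [← hU2]; exact Subgroup.map_mono hNab
  obtain ⟨hH1, -, hHset, -⟩ := lattice hN1 hN2'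
  set H := N ⊔ N2 with hH
  set D := U ⊓ cen N2 with hD
  have hDH : cen H = D := cen_sup N N2
  have hinU2 : ∀ u ∈ U, ∀ e ∈ E, a * u * a⁻¹ = e * u → u ∈ cen N2 := by
    intro u hu e he heq
    have h1 : a * u * a⁻¹ ∈ cen N2 := hU2 ▸ ⟨u, hu, rfl⟩
    rw [heq] at h1
    have h2 := mul_mem (inv_mem (hN2ab (hEN2 he))) h1
    rwa [inv_mul_cancel_left] at h2
  have hπD : U ⊓ π = D ⊓ π := by
    refine le_antisymm ?_ (inf_le_inf_right _ inf_le_left)
    rintro q ⟨hqU, hqπ⟩
    refine ⟨⟨hqU, hinU2 q hqU _ (hπa q hqπ) ?_⟩, hqπ⟩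
    rw [commutatorElement_def]; group
  have hHle : H ≤ N ⊔ π := by
    rw [← hcenI, hπD]
    calc H ≤ cen (cen H) := Subgroup.le_centralizer_iff.mpr le_rfl
      _ ≤ _ := Subgroup.centralizer_le (SetLike.coe_subset_coe.mpr (hDH ▸ inf_le_left))
  have hNπset : ((N ⊔ π : Subgroup G) : Set G) = (N : Set G) * (π : Set G) := by
    have h := (sup_maxAbelian hU1 hπA).2.2.2
    rwa [hUN] at h
  set N3 := π ⊓ H with hN3
  have hHeq : Nat.card ↥H * Nat.card ↥E = Nat.card ↥N * Nat.card ↥N3 := by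
    have hset : (H : Set G) = (N : Set G) * (N3 : Set G) := by
      refine Set.Subset.antisymm (fun h hh => ?_) ?_
      · have h1 : h ∈ ((N ⊔ π : Subgroup G) : Set G) := hHle hh
        rw [hNπset] at h1
        obtain ⟨n, hn, q, hq, rfl⟩ := h1
        refine ⟨n, hn, q, ⟨hq, ?_⟩, rfl⟩
        have h2 := mul_mem (inv_mem (Subgroup.mem_sup_left hn : n ∈ H)) hh
        rwa [inv_mul_cancel_left] at h2
      · rintro _ ⟨n, hn, q, hq, rfl⟩
        exact mul_mem (Subgroup.mem_sup_left hn) hq.2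
    have h2 : N ⊓ N3 = E := by
      rw [hN3, ← inf_assoc, hE']
      exact inf_eq_left.mpr (hEN.trans le_sup_left)
    have h3 := card_setMul_mul_card_inf N N3
    rw [← hset, h2] at h3
    exact h3
  -- measure of `N3`
  have hDπ : Nat.card ↥((D : Set G) * (π : Set G)) * Nat.card ↥E = Nat.card ↥D * Nat.card ↥N := by
    have h1 := card_setMul_mul_card_inf D π
    have h2 : Nat.card ↥W * Nat.card ↥(U ⊓ π) = Nat.card ↥U * Nat.card ↥π := by
      have h := card_setMul_mul_card_inf U π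
      rw [← hWset] at h
      exact h
    have h3 : Nat.card ↥W * Nat.card ↥E = Nat.card ↥N * Nat.card ↥U :=
      (show Nat.card ↥W * Nat.card ↥E = M from hW1).trans
        (show Nat.card ↥N * Nat.card ↥U = M from hN1).symm
    rw [← hπD] at h1
    refine Nat.eq_of_mul_eq_mul_right (Nat.mul_pos (Nat.card_pos (α := ↥(U ⊓ π))) (Nat.card_pos (α := ↥U))) ?_
    calc _ = (Nat.card ↥((D : Set G) * (π : Set G)) * Nat.card ↥(U ⊓ π)) * Nat.card ↥E * Nat.card ↥U := by ring
      _ = Nat.card ↥D * (Nat.card ↥U * Nat.card ↥π) * Nat.card ↥E := by rw [h1]; ring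
      _ = Nat.card ↥D * (Nat.card ↥W * Nat.card ↥E) * Nat.card ↥(U ⊓ π) := by rw [← h2]; ring
      _ = _ := by rw [h3]; ring
  have hsub : (D : Set G) * (π : Set G) ⊆ (cen N3 : Set G) := by
    rintro _ ⟨d, hd, q, hq, rfl⟩
    refine mul_mem ?_ ?_
    · have hd' : d ∈ cen H := by rw [hDH]; exact hd
      exact Subgroup.centralizer_le (SetLike.coe_subset_coe.mpr inf_le_right) hd'
    · exact Subgroup.centralizer_le (SetLike.coe_subset_coe.mpr inf_le_left) (hπc.symm ▸ hq : q ∈ cen π)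
  have hN3m : IsCentralizerLarge (cen N3) := by
    refine isCentralizerLarge_cen (isCentralizerLarge_of_le ?_)
    refine Nat.le_of_mul_le_mul_right (c := Nat.card ↥E * Nat.card ↥N) ?_ (Nat.mul_pos Nat.card_pos Nat.card_pos)
    calc M * (Nat.card ↥E * Nat.card ↥N)
        = (Nat.card ↥H * Nat.card ↥D) * (Nat.card ↥E * Nat.card ↥N) := by
          rw [← hDH]; exact congrArg (· * _) hH1.symm
      _ = (Nat.card ↥H * Nat.card ↥E) * (Nat.card ↥D * Nat.card ↥N) := by ring
      _ = (Nat.card ↥N * Nat.card ↥N3) * (Nat.card ↥((D : Set G) * (π : Set G)) * Nat.card ↥E) := by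
          rw [hHeq, hDπ]
      _ ≤ (Nat.card ↥N * Nat.card ↥N3) * (Nat.card ↥(cen N3) * Nat.card ↥E) :=
          Nat.mul_le_mul_left _ (Nat.mul_le_mul_right _ (Nat.card_mono (Set.toFinite _) hsub))
      _ = _ := by ring
  have hFN3 : F ⊆ (cen N3 : Set G) := by
    intro x hx
    have hxW : x ∈ (W : Set G) := hx.1
    rw [hWset] at hxW
    obtain ⟨u, hu, q, hq, rfl⟩ := hxW
    refine hsub ⟨u, ⟨hu, ?_⟩, q, hq, rfl⟩
    set ε := ⁅a, u * q⁆ with hε
    set η := ⁅a, q⁆ with hη
    have hεE : ε ∈ E := hx.2 a haJ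
    have hηE : η ∈ E := hπa q hq
    refine hinU2 u hu (ε * η⁻¹) (mul_mem hεE (inv_mem hηE)) ?_
    have hcomm : u * η⁻¹ = η⁻¹ * u := inv_mem hηE u (hUW hu)
    have h1 : a * u * a⁻¹ = (a * (u * q) * a⁻¹) * (a * q * a⁻¹)⁻¹ := by group
    have h2 : a * (u * q) * a⁻¹ = ε * (u * q) := by rw [hε, commutatorElement_def]; group
    have h3 : a * q * a⁻¹ = η * q := by rw [hη, commutatorElement_def]; group
    rw [h1, h2, h3, mul_assoc ε η⁻¹ u, ← hcomm]
    group
  have hWN3 : W ≤ cen N3 := hYeq ▸ hYmin _ hN3m hFN3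
  have hN3E : Nat.card ↥N3 ≤ Nat.card ↥E :=
    Subgroup.card_le_of_le (Subgroup.le_centralizer_iff.mp hWN3)
  have hHN : Nat.card ↥H ≤ Nat.card ↥N :=
    Nat.le_of_mul_le_mul_right (hHeq.le.trans (Nat.mul_le_mul_left _ hN3E)) Nat.card_pos
  have hHeqN : N = H := Subgroup.eq_of_le_of_card_ge le_sup_left hHN
  exact Subgroup.eq_of_le_of_card_ge (le_sup_right.trans hHeqN.ge) hN2card.ge

/-- Some minimal centrally large subgroup is normalized by the Thompson subgroup. -/
theorem exists_minimal_normalized [Group.IsNilpotent G] :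
    ∃ Q : Subgroup G, IsMinimalCentrallyLarge Q ∧
      thompsonSubgroupA G ≤ Subgroup.normalizer (Q : Set G) := by
  obtain ⟨Q0, hQ0⟩ := exists_isCentrallyLarge (G := G)
  obtain ⟨W, hW⟩ := Set.Finite.exists_minimal
    (s := {W : Subgroup G | IsCentrallyLarge W ∧ thompsonSubgroupA G ≤ Subgroup.normalizer (W : Set G)})
    (Set.toFinite _) ⟨_, isCentrallyLarge_sup_thompson hQ0, le_sup_right.trans Subgroup.le_normalizer⟩
  obtain ⟨⟨hW1, hW2⟩, hmin⟩ := hW
  refine ⟨W, ⟨hW1, fun R hR hRc => ?_⟩, hW2⟩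
  by_contra hne
  obtain ⟨W', h1, h2, h3, h4⟩ := exists_smaller_normalized hW1 hW2 hRc hR hne
  exact h3 (le_antisymm h2 (hmin ⟨h1, h4⟩ h2))

/-- Minimal centrally large subgroups lie in `Q ⊔ J` for each of them `Q`. -/
theorem minimalJoin_le_normalizer {Q : Subgroup G} (hQ : IsMinimalCentrallyLarge Q)
    (hJ : thompsonSubgroupA G ≤ Subgroup.normalizer (Q : Set G)) :
    minimalCentrallyLargeJoin G ≤ Subgroup.normalizer (Q : Set G) := by
  refine sSup_le fun R hR => ?_
  rw [← inf_sup_cen_eq (Q := R) hR hQ.1]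
  refine sup_le (inf_le_right.trans Subgroup.le_normalizer) ?_
  obtain ⟨A, hA⟩ := exists_maxAbelian (G := G)
  exact le_trans le_sup_right ((le_sSup (inf_sup_cen_mem hR.1 hA)).trans hJ)

end CfsgLib.CentrallyLarge
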